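import Cfsg.Agent.Chars.GaloisDegree.Basic
import Cfsg.Agent.Chars.Basic.Restrict

/-!
# Characters of the same degree being Galois conjugate: the derived subgroup has order `p`
-/

set_option autoImplicit false

namespace CfsgLib.GaloisDegree

open Cfsg CfsgLib.Chars
open scoped commutatorElement

universe u

variable {P : Type u} [Group P] [Finite P] {p : ℕ} [Fact p.Prime]

theorem mem_center_quotient_iff {N : Subgroup P} [N.Normal] {a : P} :
    QuotientGroup.mk' N a ∈ Subgroup.center (P ⧸ N) ↔ ∀ x : P, ⁅x, a⁆ ∈ N := by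
  rw [Subgroup.mem_center_iff]
  constructor
  · intro h x
    rw [← QuotientGroup.eq_one_iff, ← QuotientGroup.mk'_apply, map_commutatorElement,
      commutatorElement_eq_one_iff_mul_comm]
    exact h _
  · intro h x
    obtain ⟨x, rfl⟩ := QuotientGroup.mk'_surjective N x
    rw [← commutatorElement_eq_one_iff_mul_comm, ← map_commutatorElement]
    exact (QuotientGroup.eq_one_iff _).2 (h x)

omit [Finite P] in
theorem commutatorElement_mul_of_commute {a b c d : P} (hca : Commute c a) (hcb : Commute c b)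
    (hcd : Commute c d) (hda : Commute d a) (hdb : Commute d b) : ⁅c * a, d * b⁆ = ⁅a, b⁆ := by
  have e : ∀ x y : P, ⁅x, y⁆ = x * y * (y * x)⁻¹ := fun x y => by
    rw [commutatorElement_def]; group
  have e1 : c * a * (d * b) = c * d * (a * b) := by
    rw [mul_assoc c, ← mul_assoc a, ← hda.eq, mul_assoc d, ← mul_assoc c]
  have e2 : d * b * (c * a) = c * d * (b * a) := by
    rw [mul_assoc d, ← mul_assoc b, ← hcb.eq, mul_assoc c, ← mul_assoc d, ← hcd.eq]
  rw [e, e, e1, e2, mul_inv_rev]
  have h : Commute (c * d) (a * b * (b * a)⁻¹) :=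
    ((hca.mul_right hcb).mul_right (hcb.mul_right hca).inv_right).mul_left
      ((hda.mul_right hdb).mul_right (hdb.mul_right hda).inv_right)
  rw [← mul_assoc, mul_assoc (c * d), h.eq, mul_inv_cancel_right]

omit [Finite P] in
theorem commutator_mem (x y : P) : ⁅x, y⁆ ∈ commutator P := by
  rw [commutator_def]
  exact Subgroup.commutator_mem_commutator (Subgroup.mem_top x) (Subgroup.mem_top y)

theorem exists_subgroup_order_p (hP : IsPGroup p P) {D : Subgroup P} [D.Normal] (hD : D ≠ ⊥) :
    ∃ n : P, n ∈ D ∧ n ∈ Subgroup.center P ∧ orderOf n = p := by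
  obtain ⟨⟨w, hw⟩, hw1⟩ := Subgroup.ne_bot_iff_exists_ne_one.1
    (CfsgLib.PGroup.inf_center_ne_bot hP D hD)
  have hp : p.Prime := Fact.out
  obtain ⟨j, hj⟩ := hP.exists_orderOf_eq_pow w
  have hj0 : 0 < j := Nat.pos_of_ne_zero fun h0 =>
    hw1 (Subtype.ext (orderOf_eq_one_iff.1 (by rw [hj, h0, pow_zero])))
  refine ⟨w ^ p ^ (j - 1), pow_mem hw.1 _, pow_mem hw.2 _, orderOf_eq_prime ?_ fun e => ?_⟩
  · rw [← pow_mul, ← pow_succ, Nat.sub_add_cancel hj0, ← hj, pow_orderOf_eq_one]
  · have := orderOf_dvd_of_pow_eq_one e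
    rw [hj, Nat.pow_dvd_pow_iff_le_right hp.one_lt] at this
    omega

theorem normal_of_le_center {N : Subgroup P} (h : N ≤ Subgroup.center P) : N.Normal :=
  ⟨fun a ha g => by rw [Subgroup.mem_center_iff.1 (h ha) g, mul_inv_cancel_right]; exact ha⟩

/-- What is known about a quotient by a central subgroup of order `p` inside `P'`. -/
theorem quotient_facts (H : SameDegConj P) (hP : IsPGroup p P)
    (hc : Nat.card (commutator P) = p ^ 2) {N : Subgroup P} [N.Normal] (hN : N ≤ commutator P)
    (hNc : Nat.card N = p) :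
    Nat.card (commutator (P ⧸ N)) = p ∧ IsCyclic (Subgroup.center (P ⧸ N)) := by
  have h := card_commutator_quotient hN
  rw [hc, hNc, sq] at h
  have h' : Nat.card (commutator (P ⧸ N)) = p :=
    Nat.eq_of_mul_eq_mul_right (Fact.out : p.Prime).pos h
  exact ⟨h', (H.quotient N).isCyclic_center (hP.to_quotient N) h'⟩

/-- The central case with cyclic derived subgroup. -/
theorem false_of_cyclic (H : SameDegConj P) (hP : IsPGroup p P)
    (hc : Nat.card (commutator P) = p ^ 2) (hZ : commutator P ≤ Subgroup.center P) (x y : P)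
    (hxy : ⁅x, y⁆ ^ p ≠ 1) : False := by
  have hp : p.Prime := Fact.out
  set c := ⁅x, y⁆ with hcdef
  have hcC : c ∈ commutator P := commutator_mem x y
  have hco : orderOf c = p ^ 2 := by
    have h1 : orderOf c ∣ p ^ 2 := hc ▸ Subgroup.orderOf_dvd_natCard _ hcC
    obtain ⟨j, hj, hj'⟩ := (Nat.dvd_prime_pow hp).1 h1
    interval_cases j
    · exact absurd (show c ^ p = 1 by rw [orderOf_eq_one_iff.1 (show orderOf c = 1 by simpa using hj'), one_pow]) hxy
    · exact absurd (show c ^ p = 1 by rw [← pow_one p, ← hj', pow_orderOf_eq_one]) hxy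
    · exact hj'
  have hgen : commutator P = Subgroup.zpowers c :=
    (Subgroup.eq_of_le_of_card_ge (Subgroup.zpowers_le.2 hcC) (by rw [hc, Nat.card_zpowers, hco])).symm
  set N := Subgroup.zpowers (c ^ p)
  have hNle : N ≤ commutator P := Subgroup.zpowers_le.2 (pow_mem hcC _)
  haveI : N.Normal := normal_of_le_center (hNle.trans hZ)
  have hNc : Nat.card N = p := by
    rw [Nat.card_zpowers, orderOf_pow' c hp.ne_zero, hco, sq, Nat.gcd_mul_left_left,
      Nat.mul_div_cancel_left _ hp.pos]
  obtain ⟨-, hcyc⟩ := quotient_facts H hP hc hNle hNc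
  have hpow : ∀ a : P, QuotientGroup.mk' N (a ^ p) ∈ Subgroup.center (P ⧸ N) := by
    intro a
    refine mem_center_quotient_iff.2 fun g => ?_
    rw [← commutatorElement_inv, commutatorElement_pow_left (hZ (commutator_mem a g))]
    obtain ⟨i, hi⟩ := Subgroup.mem_zpowers_iff.1 (hgen ▸ commutator_mem a g)
    rw [← hi]
    exact inv_mem ⟨i, by show (c ^ p) ^ i = (c ^ i) ^ p; rw [← zpow_natCast, ← zpow_natCast, ← zpow_mul, ← zpow_mul, mul_comm]⟩
  set X : Subgroup.center (P ⧸ N) := ⟨_, hpow x⟩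
  set Y : Subgroup.center (P ⧸ N) := ⟨_, hpow y⟩
  have hPQ := (hP.to_quotient N).to_subgroup (Subgroup.center (P ⧸ N))
  obtain ⟨i1, h1⟩ := hPQ.exists_orderOf_eq_pow X
  obtain ⟨i2, h2⟩ := hPQ.exists_orderOf_eq_pow Y
  apply hxy
  rcases le_total i1 i2 with hle | hle
  · obtain ⟨i, hi⟩ := Subgroup.mem_zpowers_iff.1
      (mem_zpowers_of_orderOf_dvd (x := X) (y := Y) (h1 ▸ h2 ▸ pow_dvd_pow p hle))
    have hi' : QuotientGroup.mk' N ((y ^ p) ^ i) = QuotientGroup.mk' N (x ^ p) := by
      rw [map_zpow]; simpa [X, Y] using congrArg Subtype.val hi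
    obtain ⟨n, hn, e⟩ := (QuotientGroup.mk'_eq_mk' N).1 hi'
    rw [← commutatorElement_pow_left (hZ hcC), ← e]
    exact commutatorElement_eq_one_iff_mul_comm.2
      ((((Commute.refl y).pow_left p).zpow_left i).mul_left
        (Subgroup.mem_center_iff.1 (hZ (hNle hn)) y).symm).eq
  · obtain ⟨i, hi⟩ := Subgroup.mem_zpowers_iff.1
      (mem_zpowers_of_orderOf_dvd (x := Y) (y := X) (h1 ▸ h2 ▸ pow_dvd_pow p hle))
    have hi' : QuotientGroup.mk' N ((x ^ p) ^ i) = QuotientGroup.mk' N (y ^ p) := by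
      rw [map_zpow]; simpa [X, Y] using congrArg Subtype.val hi
    obtain ⟨n, hn, e⟩ := (QuotientGroup.mk'_eq_mk' N).1 hi'
    have h3 : ⁅y ^ p, x⁆ = 1 := by
      rw [← e]
      exact commutatorElement_eq_one_iff_mul_comm.2
        ((((Commute.refl x).pow_left p).zpow_left i).mul_left
          (Subgroup.mem_center_iff.1 (hZ (hNle hn)) x).symm).eq
    rw [commutatorElement_pow_left (hZ (commutator_mem y x)), ← commutatorElement_inv, inv_pow,
      inv_eq_one] at h3
    exact h3

/-- The central case with elementary derived subgroup. -/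
theorem false_of_elementary (H : SameDegConj P) (hP : IsPGroup p P)
    (hc : Nat.card (commutator P) = p ^ 2) (hZ : commutator P ≤ Subgroup.center P)
    (hexp : ∀ z ∈ commutator P, z ^ p = 1) : False := by
  have hp : p.Prime := Fact.out
  have hord : ∀ z ∈ commutator P, z ≠ 1 → orderOf z = p := fun z hz h => orderOf_eq_prime (hexp z hz) h
  have hnorm : ∀ z ∈ commutator P, (Subgroup.zpowers z).Normal := fun z hz =>
    normal_of_le_center (Subgroup.zpowers_le.2 (hZ hz))
  have hne : commutator P ≠ ⊥ := fun e => by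
    rw [e, Subgroup.card_bot] at hc
    exact (Nat.one_lt_pow two_ne_zero hp.one_lt).ne hc
  obtain ⟨⟨z1, hz1⟩, hz1'⟩ := Subgroup.ne_bot_iff_exists_ne_one.1 hne
  replace hz1' : z1 ≠ 1 := fun e => hz1' (Subtype.ext e)
  obtain ⟨z2, hz2, hz2'⟩ := SetLike.not_le_iff_exists.1
    (show ¬ commutator P ≤ Subgroup.zpowers z1 from fun h => by
      have := Subgroup.card_le_of_le h
      rw [hc, Nat.card_zpowers, hord z1 hz1 hz1'] at this
      nlinarith [hp.one_lt])
  have hz2'' : z2 ≠ 1 := fun e => hz2' (e ▸ one_mem _)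
  -- elements of order `p` of the centre of a quotient
  have hmem : ∀ w ∈ commutator P, w ≠ 1 → ∀ x : P, x ^ p ∈ Subgroup.zpowers w →
      (∀ g : P, ⁅g, x⁆ ∈ Subgroup.zpowers w) → x ∈ commutator P := by
    intro w hw hw1 x hxp hxc
    haveI := hnorm w hw
    set N := Subgroup.zpowers w
    obtain ⟨hQc, hcyc⟩ := quotient_facts H hP hc (Subgroup.zpowers_le.2 hw)
      (by rw [Nat.card_zpowers, hord w hw hw1])
    haveI : Nontrivial (commutator (P ⧸ N)) := Finite.one_lt_card_iff_nontrivial.1 (hQc ▸ hp.one_lt)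
    obtain ⟨⟨u, hu⟩, hu1⟩ := exists_ne (1 : commutator (P ⧸ N))
    have huz := commutator_le_center (hP.to_quotient N) hQc hu
    have hup : u ^ p = 1 := by
      have := pow_card_eq_one' (x := (⟨u, hu⟩ : commutator (P ⧸ N)))
      rw [hQc] at this
      simpa using congrArg Subtype.val this
    obtain ⟨i, hi⟩ := Subgroup.mem_zpowers_iff.1 (mem_zpowers_of_cyclic
      (G := Subgroup.center (P ⧸ N)) (p := p)
      (x := ⟨_, mem_center_quotient_iff.2 hxc⟩) (y := ⟨u, huz⟩)
      (Subtype.ext (by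
        simpa using (QuotientGroup.eq_one_iff _).2 hxp)) (Subtype.ext hup)
      (fun e => hu1 (Subtype.ext (congrArg (fun a : Subgroup.center (P ⧸ N) => (a : P ⧸ N)) e))))
    have hx' : QuotientGroup.mk' N x ∈ commutator (P ⧸ N) := by
      have : u ^ i = QuotientGroup.mk' N x := by simpa using congrArg Subtype.val hi
      rw [← this]; exact zpow_mem hu i
    rw [← commutator_quotient N, ← Subgroup.mem_comap, Subgroup.comap_map_eq, QuotientGroup.ker_mk',
      sup_eq_left.2 (Subgroup.zpowers_le.2 hw)] at hx'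
    exact hx'
  -- the centre has exponent `p`
  have hcentre : ∀ z ∈ Subgroup.center P, z ^ p = 1 := by
    intro z hz
    by_contra hzp
    obtain ⟨j, hj⟩ := hP.exists_orderOf_eq_pow z
    have hj2 : 2 ≤ j := by
      by_contra hlt
      apply hzp
      rw [← orderOf_dvd_iff_pow_eq_one, hj]
      exact (pow_dvd_pow p (show j ≤ 1 by omega)).trans (pow_one p).dvd
    set u := z ^ p ^ (j - 2)
    have hu : u ∈ Subgroup.center P := pow_mem hz _
    have hw1 : u ^ p ≠ 1 := fun e => by
      rw [← pow_mul, ← pow_succ] at e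
      have := orderOf_dvd_of_pow_eq_one e
      rw [hj, Nat.pow_dvd_pow_iff_le_right hp.one_lt] at this
      omega
    have hwp : (u ^ p) ^ p = 1 := by
      rw [← pow_mul, ← pow_mul, ← sq, ← pow_add, Nat.sub_add_cancel hj2, ← hj, pow_orderOf_eq_one]
    have hwC : u ^ p ∈ commutator P := hmem z1 hz1 hz1' _ (hwp ▸ one_mem _) fun g => by
      rw [commutatorElement_eq_one_iff_mul_comm.2 (Subgroup.mem_center_iff.1 (pow_mem hu p) g)]
      exact one_mem _
    exact hw1 (hexp u (hmem _ hwC hw1 u (Subgroup.mem_zpowers _) fun g => by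
      rw [commutatorElement_eq_one_iff_mul_comm.2 (Subgroup.mem_center_iff.1 hu g)]
      exact one_mem _))
  -- the degree belonging to a subgroup of order `p` in the derived subgroup
  have hdeg : ∀ w ∈ commutator P, w ≠ 1 → ∀ v ∈ commutator P, v ∉ Subgroup.zpowers w →
      ∃ χ : IrrCharacter P, ∃ f j : ℕ, w ∈ charKer (χ : P → ℂ) ∧ v ∉ charKer (χ : P → ℂ) ∧
        charDegree (χ : P → ℂ) ≠ 1 ∧ charDegree (χ : P → ℂ) = p ^ f ∧ (j = 1 ∨ j = 2) ∧
          p ^ (2 * f + j) * p = Nat.card P := by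
    intro w hw hw1 v hv hvw
    haveI := hnorm w hw
    set N := Subgroup.zpowers w
    have hNc : Nat.card N = p := by rw [Nat.card_zpowers, hord w hw hw1]
    obtain ⟨hQc, hcyc⟩ := quotient_facts H hP hc (Subgroup.zpowers_le.2 hw) hNc
    obtain ⟨ψ, hψv, hψ⟩ := exists_nonlinear (P := P ⧸ N) (g := QuotientGroup.mk' N v)
      (commutator_quotient N ▸ Subgroup.mem_map_of_mem _ hv)
      (fun e => hvw ((QuotientGroup.eq_one_iff _).1 e))
    have hsq := degree_sq (hP.to_quotient N) hQc hψ
    obtain ⟨n, hn⟩ := IsPGroup.iff_card.1 hP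
    obtain ⟨f, -, hf⟩ := (Nat.dvd_prime_pow hp).1 (hn ▸ charDegree_dvd_card (inflate N ψ))
    obtain ⟨g, hg⟩ := hcyc.exists_generator
    obtain ⟨a, ha⟩ := QuotientGroup.mk'_surjective N (g : P ⧸ N)
    have hap : a ^ p ∈ Subgroup.center P := by
      refine Subgroup.mem_center_iff.2 fun x => ?_
      refine (commutatorElement_eq_one_iff_mul_comm.1 ?_).symm
      rw [commutatorElement_pow_left (hZ (commutator_mem a x)), hexp _ (commutator_mem a x)]
    have hgp : orderOf g ∣ p ^ 2 := orderOf_dvd_of_pow_eq_one (Subtype.ext (by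
      rw [SubmonoidClass.coe_pow, ← ha, ← map_pow, sq, pow_mul, hcentre _ hap]; simp))
    have hZc : Nat.card (Subgroup.center (P ⧸ N)) = orderOf g :=
      (orderOf_eq_card_of_forall_mem_zpowers hg).symm
    obtain ⟨j, hj, hj'⟩ := (Nat.dvd_prime_pow hp).1 hgp
    have hj0 : j ≠ 0 := fun h0 => by
      have h1 := Subgroup.card_le_of_le (commutator_le_center (hP.to_quotient N) hQc)
      rw [hQc, hZc, hj', h0, pow_zero] at h1
      exact absurd hp.one_lt (by omega)
    refine ⟨inflate N ψ, f, j, le_charKer_inflate N ψ (Subgroup.mem_zpowers w), ?_,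
      by rwa [charDegree_inflate], hf, by omega, ?_⟩
    · intro h
      apply hψv
      rw [mem_charKer_iff (isCharacter_coe ψ)]
      have e := map_eq_map_one_of_mem_charKer h
      exact e
    · rw [charDegree_inflate] at hf
      rw [hf, hZc, hj', ← pow_mul, ← pow_add, mul_comm f 2] at hsq
      rw [hsq, ← N.card_mul_index, hNc, Subgroup.index_eq_card, mul_comm]
  obtain ⟨χ1, f1, j1, a1, -, c1, d1, hj1, e1⟩ := hdeg z1 hz1 hz1' z2 hz2 hz2'
  obtain ⟨χ2, f2, j2, -, b2, c2, d2, hj2, e2⟩ := hdeg z2 hz2 hz2'' z1 hz1 (fun h => by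
    apply hz2'
    have h3 : Subgroup.zpowers z1 = Subgroup.zpowers z2 :=
      Subgroup.eq_of_le_of_card_ge (Subgroup.zpowers_le.2 h)
        (by rw [Nat.card_zpowers, Nat.card_zpowers, hord _ hz1 hz1', hord _ hz2 hz2''])
    rw [h3]; exact Subgroup.mem_zpowers _)
  have hf : 2 * f1 + j1 = 2 * f2 + j2 :=
    Nat.pow_right_injective hp.two_le (Nat.eq_of_mul_eq_mul_right hp.pos (e1.trans e2.symm))
  have hf' : f1 = f2 := by omega
  exact b2 (H.ker_le c1 (by rw [d1, d2, hf']) a1)

/-- The noncentral case. -/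
theorem false_of_noncentral (H : SameDegConj P) (hP : IsPGroup p P)
    (hc : Nat.card (commutator P) = p ^ 2) (hZ : ¬ commutator P ≤ Subgroup.center P) : False := by
  have hp : p.Prime := Fact.out
  obtain ⟨n, hnC, hnZ, hno⟩ := exists_subgroup_order_p hP (D := commutator P) fun e => hZ (e ▸ bot_le)
  set N := Subgroup.zpowers n with hNdef
  have hNZ : N ≤ Subgroup.center P := Subgroup.zpowers_le.2 hnZ
  have hNC : N ≤ commutator P := Subgroup.zpowers_le.2 hnC
  haveI : N.Normal := normal_of_le_center hNZ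
  have hNc : Nat.card N = p := by rw [Nat.card_zpowers, hno]
  obtain ⟨hQc, hcyc⟩ := quotient_facts H hP hc hNC hNc
  have hQZ := commutator_le_center (hP.to_quotient N) hQc
  have hNeq : ∀ c ∈ commutator P, c ∈ Subgroup.center P → c ∈ N := by
    intro c hc1 hc2
    have hI : N = commutator P ⊓ Subgroup.center P := by
      refine Subgroup.eq_of_le_of_card_ge (le_inf hNC hNZ) ?_
      obtain ⟨j, hj, hj'⟩ := (Nat.dvd_prime_pow hp).1
        (hc ▸ Subgroup.card_dvd_of_le (inf_le_left : commutator P ⊓ Subgroup.center P ≤ commutator P))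
      rw [hj', hNc]
      interval_cases j
      · simp [hp.one_le]
      · simp
      · exact absurd ((Subgroup.eq_of_le_of_card_ge inf_le_left (by rw [hc, hj'])).ge.trans inf_le_right) hZ
    rw [hI]; exact ⟨hc1, hc2⟩
  -- the preimage of the centre of the quotient
  set A := (Subgroup.center (P ⧸ N)).comap (QuotientGroup.mk' N) with hA
  have hCA : commutator P ≤ A := fun c h => by
    rw [hA, Subgroup.mem_comap]
    exact hQZ (commutator_quotient N ▸ Subgroup.mem_map_of_mem _ h)
  obtain ⟨g0, hg0⟩ := hcyc.exists_generator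
  obtain ⟨g, hg⟩ := QuotientGroup.mk'_surjective N (g0 : P ⧸ N)
  have hgA : g ∈ A := by rw [hA, Subgroup.mem_comap, hg]; exact g0.2
  have hAgen : ∀ a ∈ A, ∃ i : ℤ, ∃ m ∈ N, g ^ i * m = a := by
    intro a ha
    obtain ⟨i, hi⟩ := Subgroup.mem_zpowers_iff.1 (hg0 ⟨_, ha⟩)
    have hi' : QuotientGroup.mk' N (g ^ i) = QuotientGroup.mk' N a := by
      rw [map_zpow, hg]; simpa using congrArg Subtype.val hi
    exact ⟨i, (QuotientGroup.mk'_eq_mk' N).1 hi'⟩
  let F : P →* P :=
    { toFun := fun x => ⁅x, g⁆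
      map_one' := commutatorElement_one_left g
      map_mul' := fun x y => by
        have h1 := hNZ (mem_center_quotient_iff.1 hgA y)
        rw [commutatorElement_mul_left h1, Subgroup.mem_center_iff.1 h1] }
  set K := F.ker with hK
  have hKidx : K.index ∣ p := by
    rw [hK, Subgroup.index_ker, ← hNc]
    exact Subgroup.card_dvd_of_le (by rintro _ ⟨x, rfl⟩; exact mem_center_quotient_iff.1 hgA x)
  have hKcomm : ∀ x, x ∈ K ↔ x * g = g * x := fun x => commutatorElement_eq_one_iff_mul_comm
  set C := Subgroup.centralizer ((commutator P : Subgroup P) : Set P) with hC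
  have hAcommK : ∀ a ∈ A, ∀ x ∈ K, a * x = x * a := by
    intro a ha x hx
    obtain ⟨i, m, hm, rfl⟩ := hAgen a ha
    have h1 : Commute g x := ((hKcomm x).1 hx).symm
    exact ((h1.zpow_left i).mul_left (Subgroup.mem_center_iff.1 (hNZ hm) x).symm).eq
  have hKC : K ≤ C := fun x hx => Subgroup.mem_centralizer_iff.2 fun c hc => hAcommK c (hCA hc) x hx
  have hCtop : C ≠ ⊤ := fun e => hZ fun c hc => Subgroup.mem_center_iff.2 fun x =>
    (Subgroup.mem_centralizer_iff.1 (show x ∈ C by rw [e]; trivial) c hc).symm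
  have hKeq : K = C := by
    rcases (Nat.dvd_prime hp).1 hKidx with h | h
    · exact absurd (top_le_iff.1 ((Subgroup.index_eq_one.1 h).ge.trans hKC)) hCtop
    · rcases (Nat.dvd_prime hp).1 (h ▸ Subgroup.index_dvd_of_le hKC) with h' | h'
      · exact absurd (Subgroup.index_eq_one.1 h') hCtop
      · refine Subgroup.eq_of_le_of_card_ge hKC ?_
        have e1 := K.card_mul_index
        rw [← C.card_mul_index, h, h'] at e1
        exact (Nat.eq_of_mul_eq_mul_right hp.pos e1).ge
  have hCidx : C.index = p := by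
    rcases (Nat.dvd_prime hp).1 (hKeq ▸ hKidx) with h | h
    · exact absurd (Subgroup.index_eq_one.1 h) hCtop
    · exact h
  have hCC : ∀ a ∈ C, ∀ b ∈ C, ⁅a, b⁆ ∈ N := by
    intro a ha b hb
    refine hNeq _ (commutator_mem a b) (Subgroup.mem_center_iff.2 fun x => ?_)
    have e : x * ⁅a, b⁆ * x⁻¹ = ⁅⁅x, a⁆ * a, ⁅x, b⁆ * b⁆ := by simp only [commutatorElement_def]; group
    have hcK : ∀ c ∈ commutator P, c ∈ C := fun c hc => hKeq ▸ (hKcomm c).2 (by
      obtain ⟨i, m, hm, rfl⟩ := hAgen _ (hCA hc)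
      exact (((Commute.refl g).zpow_left i).mul_left
        (Subgroup.mem_center_iff.1 (hNZ hm) g).symm).eq)
    have hcom : ∀ c ∈ commutator P, ∀ y ∈ C, Commute c y := fun c hc y hy =>
      Subgroup.mem_centralizer_iff.1 hy c hc
    have hxa := commutator_mem x a
    have hxb := commutator_mem x b
    rw [commutatorElement_mul_of_commute (hcom _ hxa a ha) (hcom _ hxa b hb)
      (hcom _ hxa _ (hcK _ hxb)) (hcom _ hxb a ha) (hcom _ hxb b hb),
      mul_inv_eq_iff_eq_mul] at e
    exact e
  -- `C` is abelian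
  obtain ⟨x0, hx0⟩ : ∃ x0, x0 ∉ C := by
    by_contra! h
    exact hCtop (eq_top_iff.2 fun x _ => h x)
  have hinA : ∀ c ∈ C, ⁅x0, c⁆ ∈ N → c ∈ A := by
    intro c hcC hc0
    rw [hA, Subgroup.mem_comap]
    refine Subgroup.mem_center_iff.2 fun y => ?_
    have hsup : C ≤ (Subgroup.centralizer {QuotientGroup.mk' N c}).comap (QuotientGroup.mk' N) := by
      intro z hz
      rw [Subgroup.mem_comap, Subgroup.mem_centralizer_singleton_iff,
        ← commutatorElement_eq_one_iff_mul_comm, ← map_commutatorElement]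
      exact (QuotientGroup.eq_one_iff _).2 (hCC z hz c hcC)
    obtain ⟨y, rfl⟩ := QuotientGroup.mk'_surjective N y
    set D := (Subgroup.centralizer {QuotientGroup.mk' N c}).comap (QuotientGroup.mk' N)
    have hx0D : x0 ∈ D := by
      rw [Subgroup.mem_comap, Subgroup.mem_centralizer_singleton_iff,
        ← commutatorElement_eq_one_iff_mul_comm, ← map_commutatorElement]
      exact (QuotientGroup.eq_one_iff _).2 hc0
    have hD : D = ⊤ := by
      rcases (Nat.dvd_prime hp).1 (hCidx ▸ Subgroup.index_dvd_of_le hsup) with h | h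
      · exact Subgroup.index_eq_one.1 h
      · exfalso
        apply hx0
        have : C = D := Subgroup.eq_of_le_of_card_ge hsup (by
          have e1 := D.card_mul_index
          rw [← C.card_mul_index, h, hCidx] at e1
          exact (Nat.eq_of_mul_eq_mul_right hp.pos e1).le)
        rwa [this]
    exact Subgroup.mem_centralizer_singleton_iff.1 (show y ∈ D by rw [hD]; trivial)
  have hAC : ∀ a ∈ A, ∀ c ∈ C, a * c = c * a := fun a ha c hc => hAcommK a ha c (hKeq.symm ▸ hc)
  haveI hab : IsMulCommutative C := by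
    refine ⟨⟨fun u v => Subtype.ext ?_⟩⟩
    by_cases hall : ∀ c ∈ C, ⁅x0, c⁆ ∈ N
    · exact hAC _ (hinA u.1 u.2 (hall _ u.2)) v.1 v.2
    push Not at hall
    obtain ⟨w, hw, hw'⟩ := hall
    have hdec : ∀ c ∈ C, ∃ j : ℤ, c * (w ^ j)⁻¹ ∈ A := by
      intro c hcC
      have he1 : QuotientGroup.mk' N ⁅x0, w⁆ ≠ 1 := fun e => hw' ((QuotientGroup.eq_one_iff _).1 e)
      have hgen := zpowers_eq_commutator hQc
        (commutator_quotient N ▸ Subgroup.mem_map_of_mem _ (commutator_mem x0 w)) he1
      obtain ⟨j, hj⟩ := Subgroup.mem_zpowers_iff.1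
        (hgen ▸ commutator_quotient N ▸ Subgroup.mem_map_of_mem _ (commutator_mem x0 c))
      refine ⟨j, hinA _ (mul_mem hcC (inv_mem (zpow_mem hw j))) ?_⟩
      rw [← QuotientGroup.eq_one_iff, ← QuotientGroup.mk'_apply, map_commutatorElement, map_mul,
        map_inv, map_zpow]
      rw [map_commutatorElement, map_commutatorElement] at hj
      have hcent : ∀ z : P ⧸ N, ⁅QuotientGroup.mk' N x0, z⁆ ∈ Subgroup.center (P ⧸ N) :=
        fun z => hQZ (commutator_mem _ _)
      let E : P ⧸ N →* P ⧸ N :=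
        { toFun := fun z => ⁅QuotientGroup.mk' N x0, z⁆
          map_one' := commutatorElement_one_right _
          map_mul' := fun z1 z2 => by
            have h := Subgroup.mem_center_iff.1 (hcent z2) z1
            calc ⁅QuotientGroup.mk' N x0, z1 * z2⁆
                = ⁅QuotientGroup.mk' N x0, z1⁆ * (z1 * ⁅QuotientGroup.mk' N x0, z2⁆) * z1⁻¹ := by
                  simp only [commutatorElement_def]; group
              _ = _ := by rw [h, mul_assoc, mul_inv_cancel_right] }
      show E (_ * (_ ^ j)⁻¹) = 1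
      rw [map_mul, map_inv, map_zpow]
      exact mul_inv_eq_one.2 hj.symm
    obtain ⟨i, hi⟩ := hdec u.1 u.2
    obtain ⟨j, hj⟩ := hdec v.1 v.2
    set a := (u : P) * (w ^ i)⁻¹
    set b := (v : P) * (w ^ j)⁻¹
    have hb : b ∈ C := mul_mem v.2 (inv_mem (zpow_mem hw j))
    have e1 : (u : P) = a * w ^ i := (inv_mul_cancel_right _ _).symm
    have e2 : (v : P) = b * w ^ j := (inv_mul_cancel_right _ _).symm
    show (u : P) * v = v * u
    rw [e1, e2]
    have c1 : Commute a b := hAC a hi b hb
    have c2 : Commute a (w ^ j) := hAC a hi _ (zpow_mem hw j)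
    have c3 : Commute (w ^ i) b := (hAC b hj _ (zpow_mem hw i)).symm
    have c4 : Commute (w ^ i) (w ^ j) := Commute.zpow_zpow_self w i j
    exact ((c1.mul_right c2).mul_left (c3.mul_right c4)).eq
  -- all nonlinear degrees equal `p`
  have hdegp : ∀ χ : IrrCharacter P, charDegree (χ : P → ℂ) ≠ 1 → charDegree (χ : P → ℂ) = p := by
    intro χ hχ
    haveI := Fintype.ofFinite P
    have h1 := CfsgLib.Chars.charDegree_le_index_of_isMulCommutative χ C
    rw [hCidx] at h1
    obtain ⟨k, hk⟩ := IsPGroup.iff_card.1 hP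
    obtain ⟨f, -, hf⟩ := (Nat.dvd_prime_pow hp).1 (hk ▸ charDegree_dvd_card χ)
    rw [hf] at h1 hχ ⊢
    have hf1 : f ≤ 1 := (Nat.pow_le_pow_iff_right hp.one_lt).1 (by rwa [pow_one])
    interval_cases f
    · simp at hχ
    · exact pow_one p
  obtain ⟨χ2, hk2, h2⟩ := exists_nonlinear hnC (fun e => by
    rw [e, orderOf_one] at hno; exact hp.one_lt.ne hno)
  haveI : Nontrivial (commutator (P ⧸ N)) := Finite.one_lt_card_iff_nontrivial.1 (hQc ▸ hp.one_lt)
  obtain ⟨⟨u, hu⟩, hu1⟩ := exists_ne (1 : commutator (P ⧸ N))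
  obtain ⟨ψ, -, hψ⟩ := exists_nonlinear hu (fun e => hu1 (Subtype.ext e))
  have h1 : charDegree (inflate N ψ : P → ℂ) ≠ 1 := by rwa [charDegree_inflate]
  exact hk2 (H.ker_le h1 (by rw [hdegp _ h1, hdegp _ h2])
    (le_charKer_inflate N ψ (Subgroup.mem_zpowers n)))

theorem false_of_sq (H : SameDegConj P) (hP : IsPGroup p P)
    (hc : Nat.card (commutator P) = p ^ 2) : False := by
  by_cases hZ : commutator P ≤ Subgroup.center P
  · by_cases h : ∀ x y : P, ⁅x, y⁆ ^ p = 1
    · refine false_of_elementary H hP hc hZ fun z hz => ?_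
      let K : Subgroup P :=
        { carrier := {u | u ∈ Subgroup.center P ∧ u ^ p = 1}
          one_mem' := ⟨one_mem _, one_pow _⟩
          mul_mem' := fun {a b} ha hb => ⟨mul_mem ha.1 hb.1, by
            rw [(show Commute a b from Subgroup.mem_center_iff.1 hb.1 a).mul_pow, ha.2, hb.2, one_mul]⟩
          inv_mem' := fun {a} ha => ⟨inv_mem ha.1, by rw [inv_pow, ha.2, inv_one]⟩ }
      have hle : commutator P ≤ K := by
        rw [commutator_def, Subgroup.commutator_le]
        exact fun a _ b _ => ⟨hZ (commutator_mem a b), h a b⟩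
      exact (hle hz).2
    · push Not at h
      obtain ⟨x, y, hxy⟩ := h
      exact false_of_cyclic H hP hc hZ x y hxy
  · exact false_of_noncentral H hP hc hZ

omit [Finite P] in
theorem card_commutator_ne_one (hna : ¬ IsMulCommutative P) : Nat.card (commutator P) ≠ 1 :=
  fun h => hna ⟨⟨fun a b => commutatorElement_eq_one_iff_mul_comm.1 (by
    have := commutator_mem a b
    rwa [Subgroup.eq_bot_of_card_eq _ h, Subgroup.mem_bot] at this)⟩⟩

theorem card_commutator_eq (H : SameDegConj P) (hP : IsPGroup p P)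
    (hne : Nat.card (commutator P) ≠ 1) : Nat.card (commutator P) = p := by
  suffices key : ∀ (j : ℕ) (Q : Type u) [Group Q] [Finite Q], SameDegConj Q → IsPGroup p Q →
      Nat.card (commutator Q) = p ^ j → j ≤ 1 by
    obtain ⟨j, hj⟩ := IsPGroup.iff_card.1 (hP.to_subgroup (commutator P))
    have := key j P H hP hj
    interval_cases j
    · simp at hj; exact absurd (by rw [hj, Subgroup.card_bot]) hne
    · simpa using hj
  intro j
  induction j with
  | zero => intros; omega
  | succ j ih =>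
    intro Q _ _ HQ hQ hj
    have hp : p.Prime := Fact.out
    have hne' : commutator Q ≠ ⊥ := fun e => by
      rw [e, Subgroup.card_bot] at hj
      exact (Nat.one_lt_pow (Nat.succ_ne_zero j) hp.one_lt).ne hj
    obtain ⟨n, hnC, hnZ, hno⟩ := exists_subgroup_order_p hQ hne'
    haveI := normal_of_le_center (Subgroup.zpowers_le.2 hnZ)
    have h := card_commutator_quotient (Subgroup.zpowers_le.2 hnC)
    rw [hj, Nat.card_zpowers, hno, pow_succ] at h
    have hle := ih _ (HQ.quotient _) (hQ.to_quotient _) (Nat.eq_of_mul_eq_mul_right hp.pos h)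
    interval_cases j
    · omega
    · exact (false_of_sq HQ hQ hj).elim

end CfsgLib.GaloisDegree
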